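import Mathlib
import Cfsg.Prelude.Def_Classification2
import Cfsg.Agent.H208.QuadBase

/-!
# The pivot lemma of S2888: transport and reductions (helper5)

* `Piv p z` : the same as `H226.ParG.Piv`;
* `LP p L` : all `p`-central elements `z` of order `p` of `L` satisfy `Piv p z`;
* `Piv.map`, `Piv.conj`, `LP.congr`, `LP.of_exists`;
* `piv_pair` : `z` and `x` commute, `y` conjugates `x` to `x z`, every element of order `p` of `⟨z⟩` and `x` has a conjugate with
  a power equal to `z`.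
-/

set_option autoImplicit false

namespace Cfsg.Agent.H5.Piv

open Subgroup Cfsg
open Cfsg.Agent.H208.QuadBase (mem_sylow)
open scoped Pointwise

universe u v

/-- **Pivot.** (definitionally `Cfsg.Agent.H226.ParG.Piv`) -/
def Piv (p : ℕ) {L : Type u} [Group L] (z : L) : Prop :=
  ∃ E : Subgroup L, IsElementaryAbelian p E ∧ E ≠ ⊥ ∧
    ∀ B : Subgroup L, B ≤ E → B.relIndex E = p → ∃ b ∈ B, ∃ g : L, z ∈ zpowers (g * b * g⁻¹)

/-- every `z ≠ 1` with `z ^ p = 1` commuting with a Sylow `p`-subgroup of `L` satisfies `Piv p z` -/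
def LP (p : ℕ) (L : Type u) [Group L] : Prop :=
  ∀ (P : Sylow p L) (z : L), z ≠ 1 → z ^ p = 1 → (∀ x ∈ P, x * z = z * x) → Piv p z

theorem piv_equiv {p : ℕ} {L : Type u} {L' : Type v} [Group L] [Group L'] (f : L ≃* L') {z : L}
    (h : Piv p z) : Piv p (f z) := by
  obtain ⟨E, hE, hE1, hB⟩ := h
  refine ⟨E.map f.toMonoidHom, ⟨⟨⟨?_⟩⟩, ?_⟩, ?_, ?_⟩
  · rintro ⟨_, a, ha, rfl⟩ ⟨_, b, hb, rfl⟩
    apply Subtype.ext
    have h1 := hE.1.is_comm.comm ⟨a, ha⟩ ⟨b, hb⟩
    have h2 : a * b = b * a := congrArg Subtype.val h1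
    change f a * f b = f b * f a
    rw [← map_mul, h2, map_mul]
  · rintro _ ⟨a, ha, rfl⟩
    rw [← map_pow, hE.2 a ha, map_one]
  · rwa [Ne, Subgroup.map_eq_bot_iff_of_injective _ f.injective]
  · intro B hBE hi
    have h1 : B = (B.comap f.toMonoidHom).map f.toMonoidHom := by
      rw [Subgroup.map_comap_eq_self_of_surjective f.surjective]
    have h2 : B.comap f.toMonoidHom ≤ E := by
      intro x hx
      obtain ⟨y, hy, hyx⟩ := hBE (mem_comap.1 hx)
      have : y = x := f.injective hyx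
      rwa [← this]
    have h3 : (B.comap f.toMonoidHom).relIndex E = p := by
      rw [h1, relIndex_map_map_of_injective _ _ f.injective] at hi
      exact hi
    obtain ⟨b, hb, g, hg⟩ := hB _ h2 h3
    refine ⟨f b, hb, f g, ?_⟩
    obtain ⟨k, hk⟩ := hg
    refine ⟨k, ?_⟩
    change (g * b * g⁻¹) ^ k = z at hk
    change (f g * f b * (f g)⁻¹) ^ k = f z
    rw [← hk]
    simp [map_mul]

theorem piv_conj {p : ℕ} {L : Type u} [Group L] {z : L} (g : L) (h : Piv p (g * z * g⁻¹)) : Piv p z := by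
  have h1 := piv_equiv (MulAut.conj g⁻¹) h
  have e : (MulAut.conj g⁻¹) (g * z * g⁻¹) = z := by
    change g⁻¹ * (g * z * g⁻¹) * g⁻¹⁻¹ = z
    group
  rwa [e] at h1

/-- a generator of the same cyclic group -/
theorem piv_of_mem {p : ℕ} {L : Type u} [Group L] {z w : L} (hzw : w ∈ zpowers z) (h : Piv p z) : Piv p w := by
  obtain ⟨E, hE, hE1, hB⟩ := h
  refine ⟨E, hE, hE1, fun B hBE hi => ?_⟩
  obtain ⟨b, hb, g, hg⟩ := hB B hBE hi
  exact ⟨b, hb, g, (zpowers_le.2 hg) hzw⟩

theorem LP.congr {p : ℕ} {L : Type u} {L' : Type v} [Group L] [Group L'] (e : L ≃* L') (h : LP p L') : LP p L := by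
  intro P z hz hzp hc
  have h1 : IsPGroup p ((P : Subgroup L).map e.toMonoidHom) := P.2.map _
  have hmax : ∀ {Q : Subgroup L'}, IsPGroup p Q → (P : Subgroup L).map e.toMonoidHom ≤ Q →
      Q = (P : Subgroup L).map e.toMonoidHom := by
    intro Q hQ hle
    have h2 : IsPGroup p (Q.map e.symm.toMonoidHom) := hQ.map _
    have h3 : (P : Subgroup L) ≤ Q.map e.symm.toMonoidHom := by
      intro x hx
      exact ⟨e x, hle ⟨x, hx, rfl⟩, e.symm_apply_apply x⟩
    have h4 := P.3 h2 h3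
    apply le_antisymm _ hle
    intro y hy
    have h5 : e.symm y ∈ (P : Subgroup L) := by
      rw [← h4]
      exact ⟨y, hy, rfl⟩
    exact ⟨e.symm y, h5, e.apply_symm_apply y⟩
  let P' : Sylow p L' := ⟨(P : Subgroup L).map e.toMonoidHom, h1, hmax⟩
  have h2 := h P' (e z) (by simpa using hz) (by rw [← map_pow, hzp, map_one]) (by
    rintro _ ⟨x, hx, rfl⟩
    change e x * e z = e z * e x
    rw [← map_mul, hc x hx, map_mul])
  have h3 := piv_equiv e.symm h2
  rwa [e.symm_apply_apply] at h3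

/-- it is enough to look at one Sylow subgroup -/
theorem LP.of_exists {p : ℕ} [Fact p.Prime] {L : Type u} [Group L] [Finite L] (S : Sylow p L)
    (h : ∀ z ∈ S, z ≠ 1 → z ^ p = 1 → (∀ x ∈ S, x * z = z * x) → Piv p z) : LP p L := by
  intro P z hz hzp hc
  obtain ⟨g, hg⟩ := MulAction.exists_smul_eq L P S
  have hmem : ∀ x, g * x * g⁻¹ ∈ S ↔ x ∈ P := by
    intro x
    rw [← hg]
    change g * x * g⁻¹ ∈ ((g • P : Sylow p L) : Subgroup L) ↔ _
    rw [Sylow.coe_subgroup_smul, Subgroup.mem_pointwise_smul_iff_inv_smul_mem, MulAut.smul_def, ← map_inv,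
      MulAut.conj_apply]
    have : g⁻¹ * (g * x * g⁻¹) * g⁻¹⁻¹ = x := by group
    rw [this]
    exact Iff.rfl
  refine piv_conj g (h _ ((hmem z).2 (mem_sylow P hzp hc)) ?_ ?_ ?_)
  · intro h1
    apply hz
    have h2 : z = g⁻¹ * (g * z * g⁻¹) * g := by group
    rw [h2, h1]
    group
  · rw [conj_pow, hzp]
    group
  · intro x hx
    have h1 : g⁻¹ * x * g ∈ P := by
      rw [← hmem]
      have : g * (g⁻¹ * x * g) * g⁻¹ = x := by group
      rwa [this]
    have h2 := hc _ h1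
    calc x * (g * z * g⁻¹) = g * ((g⁻¹ * x * g) * z) * g⁻¹ := by group
      _ = g * (z * (g⁻¹ * x * g)) * g⁻¹ := by rw [h2]
      _ = g * z * g⁻¹ * x := by group

end Cfsg.Agent.H5.Piv
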