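import Cfsg.Agent.H5.Piv.PSL
import Cfsg.Agent.H5.Piv.Orth
import Cfsg.Agent.H226.KList

/-!
# The pivot lemma of S2888 from the rows `PSU₄(3)`, `G₂(5)` (helper5)
-/

set_option autoImplicit false

namespace Cfsg.Agent.H5.Piv

open Cfsg
open Cfsg.Agent.H226.KList

universe u

theorem pivLemma_of (hU : ∀ {F : Type} [Field F] [Fintype F], Fintype.card F = 3 ^ 2 → LP 3 (PSU 4 F 3))
    (hG : ∀ {F : Type} [Field F] [Fintype F], Fintype.card F = 5 → LP 5 ↥(Lie.chevG2.group F))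
    {L : Type u} [Group L] [Finite L] {p : ℕ} [hp : Fact p.Prime]
    (h : (p = 3 ∧ (PSLn 4 3 L ∨ PSUn 4 3 L ∨ OOdd 3 3 L ∨ OPlus 4 3 L)) ∨ (p = 5 ∧ GTwo 5 L)) : LP p L := by
  rcases h with ⟨rfl, h | h | h | h⟩ | ⟨rfl, h⟩
  · obtain ⟨F, _, _, hF, ⟨e⟩⟩ := h
    exact (PSL.lp_psl hF (by norm_num)).congr e
  · obtain ⟨F, _, _, hF, ⟨e⟩⟩ := h
    exact (hU hF).congr e
  · obtain ⟨F, _, _, hF, ⟨e⟩⟩ := h
    have : CharP F 3 := charP_of_card_eq_prime hF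
    exact (Orth.lp_odd (by norm_num) (by norm_num)).congr e
  · obtain ⟨F, _, _, hF, ⟨e⟩⟩ := h
    have : CharP F 3 := charP_of_card_eq_prime hF
    exact (Orth.lp_plus (by norm_num)).congr e
  · obtain ⟨F, _, _, hF, ⟨e⟩⟩ := h
    exact (hG hF).congr e

end Cfsg.Agent.H5.Piv
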