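import Cfsg.Agent.H5.Piv.Pair
import Cfsg.Agent.ClassicalGeometry.AutPSL.SylowU

/-!
# The pivot lemma: `PSL_n(p)`, `n ≥ 3` (helper5)
-/

set_option autoImplicit false
set_option linter.unusedSectionVars false

namespace Cfsg.Agent.H5.Piv.PSL

open scoped commutatorElement
open Matrix
open Cfsg.Agent.H5.Piv
open Cfsg.Agent.ClassicalGeometry.AutPSL.Root
open Cfsg.Agent.ClassicalGeometry.AutPSL.SylowU

variable {ι F : Type*} [Fintype ι] [DecidableEq ι] [Field F]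

theorem tr_pow (a φ : ι → F) (h : φ ⬝ᵥ a = 0) (k : ℕ) :
    tr a φ h ^ k = tr ((k : F) • a) φ (by rw [dotProduct_smul, h, smul_zero]) := by
  induction k with
  | zero =>
    apply sl_ext
    intro x
    rw [tr_mulVec, pow_zero]
    simp
  | succ k ih =>
    rw [pow_succ, ih, tr_mul_same_axis]
    apply sl_ext
    intro x
    rw [tr_mulVec, tr_mulVec, Nat.cast_succ]
    module

/-- the relations in `SL` : `a`, `b` vectors, `φ`, `ψ` forms, `φ b = 1`, `ψ b = 0`, `φ a = ψ a = 0`; `d` with `φ d = 0`, `ψ d = 1`. -/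
theorem rel_comm {a b φ ψ : ι → F} {c : F} (ha : φ ⬝ᵥ a = 0) (hb : ψ ⬝ᵥ b = 0) (hψa : ψ ⬝ᵥ a = 0)
    (hφb : φ ⬝ᵥ b = c) :
    tr (c • a) ψ (by rw [dotProduct_smul, hψa, smul_zero]) = ⁅tr a φ ha, tr b ψ hb⁆ := by
  rw [commutatorElement_def, eq_mul_inv_iff_mul_eq, eq_mul_inv_iff_mul_eq]
  apply sl_ext
  intro x
  simp only [sl_mul_mulVec, tr_mulVec, dotProduct_add, dotProduct_smul, hb, hψa, hφb, smul_eq_mul]
  module

theorem rel_conj {a b d φ ψ : ι → F} (ha : φ ⬝ᵥ a = 0) (hb : ψ ⬝ᵥ b = 0) (hψa : ψ ⬝ᵥ a = 0)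
    (hφb : φ ⬝ᵥ b = 1) (hφd : φ ⬝ᵥ d = 0) (hψd : ψ ⬝ᵥ d = 1) :
    tr (-d) φ (by rw [dotProduct_neg, hφd, neg_zero]) * tr b ψ hb * tr a φ ha =
      tr (-a) ψ (by rw [dotProduct_neg, hψa, neg_zero]) * (tr (-d) φ (by rw [dotProduct_neg, hφd, neg_zero]) * tr b ψ hb) := by
  apply sl_ext
  intro x
  simp only [sl_mul_mulVec, tr_mulVec, dotProduct_add, dotProduct_smul, dotProduct_neg, ha, hb, hψa, hφb, hψd,
    smul_eq_mul]
  module

theorem exists_nat {F : Type*} [Field F] [Fintype F] {p : ℕ} [hp : Fact p.Prime] (hF : Fintype.card F = p) [CharP F p] (c : F) :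
    ∃ k : ℕ, (k : F) = c := by
  subst hF
  obtain ⟨m, hm⟩ := (ZMod.castHom_bijective F (n := Fintype.card F) rfl).2 c
  have : NeZero (Fintype.card F) := ⟨hp.out.ne_zero⟩
  refine ⟨m.val, ?_⟩
  rw [← hm, ZMod.castHom_apply, ZMod.natCast_val]

theorem pr_tr_pow (a φ : ι → F) (h : φ ⬝ᵥ a = 0) {p : ℕ} [CharP F p] :
    (pr (tr a φ h) : Matrix.ProjectiveSpecialLinearGroup ι F) ^ p = 1 := by
  rw [← map_pow, tr_pow]
  have e : tr ((p : F) • a) φ (by rw [dotProduct_smul, h, smul_zero]) = 1 := by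
    apply sl_ext
    intro x
    rw [tr_mulVec, CharP.cast_eq_zero]
    simp
  rw [e, map_one]

theorem piv_tr [Fintype F] [Finite (Matrix.ProjectiveSpecialLinearGroup ι F)] {p : ℕ} [hp : Fact p.Prime] (hF : Fintype.card F = p)
    {a b d φ ψ : ι → F} (ha : φ ⬝ᵥ a = 0) (hb : ψ ⬝ᵥ b = 0)
    (hψa : ψ ⬝ᵥ a = 0) (hφb : φ ⬝ᵥ b = 1) (hφd : φ ⬝ᵥ d = 0) (hψd : ψ ⬝ᵥ d = 1) {c : F} (h : ψ ⬝ᵥ (c • a) = 0)
    (h1 : (pr (tr (c • a) ψ h) : Matrix.ProjectiveSpecialLinearGroup ι F) ≠ 1) :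
    Piv p (pr (tr (c • a) ψ h) : Matrix.ProjectiveSpecialLinearGroup ι F) := by
  have hchar : CharP F p := charP_of_card_eq_prime hF
  have hb' : ψ ⬝ᵥ (c • b) = 0 := by rw [dotProduct_smul, hb, smul_zero]
  have hφb' : φ ⬝ᵥ (c • b) = c := by rw [dotProduct_smul, hφb, smul_eq_mul, mul_one]
  refine piv_comm (x := pr (tr a φ ha)) (y := pr (tr (c • b) ψ hb'))
    (g := pr (tr (-d) φ (by rw [dotProduct_neg, hφd, neg_zero]) * tr b ψ hb)) h1 (pr_tr_pow _ _ _) (pr_tr_pow _ _ _) ?_ ?_ ?_ ?_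
  · rw [← map_mul, ← map_mul]
    congr 1
    apply sl_ext
    intro x
    simp only [sl_mul_mulVec, tr_mulVec, dotProduct_add, dotProduct_smul, ha, hψa, smul_eq_mul]
    module
  · rw [← map_mul, ← map_mul]
    congr 1
    apply sl_ext
    intro x
    simp only [sl_mul_mulVec, tr_mulVec, dotProduct_add, dotProduct_smul, hb, hψa, smul_eq_mul]
    module
  · rw [rel_comm ha hb' hψa hφb', map_commutatorElement]
  · obtain ⟨k, hk⟩ := exists_nat hF (-c)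
    refine ⟨k, ?_⟩
    have e : pr (tr (-d) φ (by rw [dotProduct_neg, hφd, neg_zero]) * tr b ψ hb) * pr (tr a φ ha) *
        (pr (tr (-d) φ (by rw [dotProduct_neg, hφd, neg_zero]) * tr b ψ hb))⁻¹ =
        pr (tr (-a) ψ (by rw [dotProduct_neg, hψa, neg_zero])) := by
      rw [mul_inv_eq_iff_eq_mul, ← map_mul, rel_conj ha hb hψa hφb hφd hψd, map_mul]
    change (pr (tr (-d) φ (by rw [dotProduct_neg, hφd, neg_zero]) * tr b ψ hb) * pr (tr a φ ha) *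
        (pr (tr (-d) φ (by rw [dotProduct_neg, hφd, neg_zero]) * tr b ψ hb))⁻¹) ^ (k : ℤ) = _
    rw [e, zpow_natCast, ← map_pow, tr_pow]
    congr 1
    apply sl_ext
    intro x
    rw [tr_mulVec, tr_mulVec, hk]
    module

/-- `PSL_n`, `n ≥ 3` -/
theorem lp_psl {F : Type} [Field F] [Fintype F] {p : ℕ} [hp : Fact p.Prime] (hF : Fintype.card F = p) {n : ℕ} (hn : 3 ≤ n) :
    LP p (Matrix.ProjectiveSpecialLinearGroup (Fin n) F) := by
  have hchar : CharP F p := charP_of_card_eq_prime hF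
  obtain ⟨S, hS⟩ := exists_sylow (F := F) n p
  refine LP.of_exists S ?_
  intro z hz hz1 hz3 hc
  have hz' : z ∈ (upper n F).map pr := by
    rw [← hS]; exact hz
  obtain ⟨z, hzU, rfl⟩ := hz'
  obtain ⟨m, rfl⟩ : ∃ m, n = m + 3 := ⟨n - 3, by omega⟩
  have h0 : (0 : Fin (m + 3)) < Fin.last (m + 2) := Fin.last_pos
  obtain ⟨c, rfl⟩ := eq_transvection_of_commute h0 (fun i => Fin.zero_le i) (fun i => Fin.le_last i) hzU (by
    intro u hu
    exact (hc (pr u) (by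
      change pr u ∈ (S : Subgroup _)
      rw [hS]
      exact ⟨u, hu, rfl⟩)).symm)
  have h01 : (0 : Fin (m + 3)) ≠ 1 := by simp
  have h1l : (1 : Fin (m + 3)) ≠ Fin.last (m + 2) := by
    intro h
    have := congrArg Fin.val h
    simp at this
  have ha : (Pi.single 1 1 : Fin (m + 3) → F) ⬝ᵥ (Pi.single 0 1 : Fin (m + 3) → F) = 0 := by
    rw [single_dotProduct, Pi.single_eq_of_ne h01.symm, mul_zero]
  have hψa : (Pi.single (Fin.last (m + 2)) 1 : Fin (m + 3) → F) ⬝ᵥ (Pi.single 0 1 : Fin (m + 3) → F) = 0 := by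
    rw [single_dotProduct, Pi.single_eq_of_ne h0.ne', mul_zero]
  have hb : (Pi.single (Fin.last (m + 2)) 1 : Fin (m + 3) → F) ⬝ᵥ (Pi.single 1 1 : Fin (m + 3) → F) = 0 := by
    rw [single_dotProduct, Pi.single_eq_of_ne h1l.symm, mul_zero]
  have hφb : (Pi.single 1 1 : Fin (m + 3) → F) ⬝ᵥ (Pi.single 1 1 : Fin (m + 3) → F) = 1 := by
    rw [single_dotProduct, Pi.single_eq_same, mul_one]
  have hφd : (Pi.single 1 1 : Fin (m + 3) → F) ⬝ᵥ (Pi.single (Fin.last (m + 2)) 1 : Fin (m + 3) → F) = 0 := by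
    rw [single_dotProduct, Pi.single_eq_of_ne h1l, mul_zero]
  have hψd : (Pi.single (Fin.last (m + 2)) 1 : Fin (m + 3) → F) ⬝ᵥ (Pi.single (Fin.last (m + 2)) 1 : Fin (m + 3) → F) = 1 := by
    rw [single_dotProduct, Pi.single_eq_same, mul_one]
  rw [transvection_eq_tr] at hz1 hz3 hc ⊢
  exact piv_tr hF ha hb hψa hφb hφd hψd _ hz1

end Cfsg.Agent.H5.Piv.PSL
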