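import Cfsg.Agent.H5.Piv.Base

/-!
# Pivots from commutators (helper5)
-/

set_option autoImplicit false

namespace Cfsg.Agent.H5.Piv

open Subgroup Cfsg
open scoped commutatorElement

universe u

section

variable {L : Type u} [Group L]

/-- the subgroup of the `x ^ i * z ^ j` -/
def pair (x z : L) (h : Commute x z) : Subgroup L where
  carrier := {y | ∃ i j : ℤ, y = x ^ i * z ^ j}
  mul_mem' := by
    rintro _ _ ⟨i, j, rfl⟩ ⟨k, l, rfl⟩
    refine ⟨i + k, j + l, ?_⟩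
    rw [zpow_add, zpow_add]
    have h1 : z ^ j * x ^ k = x ^ k * z ^ j := (h.symm.zpow_zpow j k).eq
    calc x ^ i * z ^ j * (x ^ k * z ^ l) = x ^ i * (z ^ j * x ^ k) * z ^ l := by group
      _ = x ^ i * (x ^ k * z ^ j) * z ^ l := by rw [h1]
      _ = x ^ i * x ^ k * (z ^ j * z ^ l) := by group
  one_mem' := ⟨0, 0, by simp⟩
  inv_mem' := by
    rintro _ ⟨i, j, rfl⟩
    refine ⟨-i, -j, ?_⟩
    rw [mul_inv_rev, zpow_neg, zpow_neg]
    exact ((h.zpow_zpow i j).inv_inv).eq.symm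

theorem mem_pair_iff {x z : L} {h : Commute x z} {y : L} : y ∈ pair x z h ↔ ∃ i j : ℤ, y = x ^ i * z ^ j := Iff.rfl

theorem conj_zpow_aux {x y z : L} (hy : y * x * y⁻¹ = x * z) (hyz : Commute y z) (k : ℕ) :
    y ^ k * x * (y ^ k)⁻¹ = x * z ^ k := by
  induction k with
  | zero => simp
  | succ k ih =>
    have h1 : y * z ^ k * y⁻¹ = z ^ k := by rw [(hyz.pow_right k).eq, mul_inv_cancel_right]
    calc y ^ (k + 1) * x * (y ^ (k + 1))⁻¹ = y * (y ^ k * x * (y ^ k)⁻¹) * y⁻¹ := by rw [pow_succ']; group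
      _ = y * (x * z ^ k) * y⁻¹ := by rw [ih]
      _ = (y * x * y⁻¹) * (y * z ^ k * y⁻¹) := by group
      _ = x * z * z ^ k := by rw [hy, h1]
      _ = x * z ^ (k + 1) := by rw [pow_succ']; group

/-- **The criterion with two elements.** -/
theorem piv_pair [Finite L] {p : ℕ} [hp : Fact p.Prime] {x y z g : L} (hz1 : z ≠ 1) (hz : z ^ p = 1) (hx : x ^ p = 1)
    (hxz : Commute x z) (hyz : Commute y z) (hy : y * x * y⁻¹ = x * z) (hg : z ∈ zpowers (g * x * g⁻¹)) : Piv p z := by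
  have hzE : z ∈ pair x z hxz := ⟨0, 1, by simp⟩
  have hxE : x ∈ pair x z hxz := ⟨1, 0, by simp⟩
  have hoz : orderOf z = p := orderOf_eq_prime hz hz1
  refine ⟨pair x z hxz, ⟨⟨⟨?_⟩⟩, ?_⟩, ?_, ?_⟩
  · rintro ⟨_, i, j, rfl⟩ ⟨_, k, l, rfl⟩
    apply Subtype.ext
    have h1 : Commute (x ^ i * z ^ j) (x ^ k * z ^ l) :=
      Commute.mul_left (Commute.mul_right ((Commute.refl x).zpow_zpow i k) (hxz.zpow_zpow i l))
        (Commute.mul_right (hxz.symm.zpow_zpow j k) ((Commute.refl z).zpow_zpow j l))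
    exact h1.eq
  · rintro _ ⟨i, j, rfl⟩
    rw [(hxz.zpow_zpow i j).mul_pow, ← zpow_natCast, ← zpow_natCast, ← zpow_mul, ← zpow_mul, mul_comm i, mul_comm j,
      zpow_mul, zpow_mul, zpow_natCast, zpow_natCast, hx, hz, one_zpow, one_zpow, one_mul]
  · intro h
    rw [h, mem_bot] at hzE
    exact hz1 hzE
  · intro B hBE hi
    have hxz' : x ∉ zpowers z := by
      rintro ⟨k, rfl⟩
      have h1 : y * z ^ k * y⁻¹ = z ^ k := by rw [(hyz.zpow_right k).eq, mul_inv_cancel_right]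
      change y * z ^ k * y⁻¹ = z ^ k * z at hy
      rw [h1] at hy
      apply hz1
      have := hy.symm
      rwa [mul_eq_left] at this
    have hB : B ≠ ⊥ := by
      rintro rfl
      rw [relIndex_bot_left] at hi
      apply hxz'
      have h1 : zpowers z = pair x z hxz :=
        eq_of_le_of_card_ge (zpowers_le.2 hzE) (by rw [hi, Nat.card_zpowers, hoz])
      rw [h1]
      exact hxE
    obtain ⟨⟨b, hb⟩, hb1⟩ := ne_bot_iff_exists_ne_one.1 hB
    have hb1' : b ≠ 1 := fun h => hb1 (Subtype.ext h)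
    obtain ⟨i, j, rfl⟩ := hBE hb
    by_cases hpi : (p : ℤ) ∣ i
    · have hxi : x ^ i = 1 := by
        obtain ⟨k, rfl⟩ := hpi
        rw [zpow_mul, zpow_natCast, hx, one_zpow]
      have hpj : ¬ (p : ℤ) ∣ j := by
        rintro ⟨k, rfl⟩
        apply hb1'
        rw [hxi, one_mul, zpow_mul, zpow_natCast, hz, one_zpow]
      have hcop : IsCoprime j (p : ℤ) :=
        ((Nat.prime_iff_prime_int.1 hp.out).coprime_iff_not_dvd.2 hpj).symm
      obtain ⟨a, c, hac⟩ := hcop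
      refine ⟨_, hb, 1, ⟨a, ?_⟩⟩
      change (1 * (x ^ i * z ^ j) * 1⁻¹) ^ a = z
      rw [hxi, one_mul, one_mul, inv_one, mul_one, ← zpow_mul]
      have h1 : j * a = 1 - p * c := by linarith
      rw [h1, zpow_sub, zpow_one, zpow_mul, zpow_natCast, hz, one_zpow, inv_one, mul_one]
    · have hcop : IsCoprime i (p : ℤ) :=
        ((Nat.prime_iff_prime_int.1 hp.out).coprime_iff_not_dvd.2 hpi).symm
      obtain ⟨a, c, hac⟩ := hcop
      have hxa : x ^ (i * a) = x := by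
        have h1 : i * a = 1 - p * c := by linarith
        rw [h1, zpow_sub, zpow_one, zpow_mul, zpow_natCast, hx, one_zpow, inv_one, mul_one]
      obtain ⟨m, hm⟩ : ∃ m : ℕ, z ^ (j * a) = z ^ m := by
        refine ⟨((j * a) % p).toNat, ?_⟩
        have h0 : 0 ≤ (j * a) % p := Int.emod_nonneg _ (by exact_mod_cast hp.out.ne_zero)
        rw [← zpow_natCast, Int.toNat_of_nonneg h0, ← hoz, zpow_mod_orderOf]
      have hba : (x ^ i * z ^ j) ^ a = x * z ^ m := by
        rw [(hxz.zpow_zpow i j).mul_zpow, ← zpow_mul, ← zpow_mul, hxa, hm]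
      refine ⟨(x ^ i * z ^ j) ^ a, B.zpow_mem hb a, g * (y ^ m)⁻¹, ?_⟩
      have e : g * (y ^ m)⁻¹ * (x ^ i * z ^ j) ^ a * (g * (y ^ m)⁻¹)⁻¹ = g * x * g⁻¹ := by
        rw [hba, ← conj_zpow_aux hy hyz m]
        group
      rw [e]
      exact hg

/-- the criterion with a commutator -/
theorem piv_comm [Finite L] {p : ℕ} [hp : Fact p.Prime] {x y z g : L} (hz1 : z ≠ 1) (hz : z ^ p = 1) (hx : x ^ p = 1)
    (hxz : x * z = z * x) (hyz : y * z = z * y) (hxy : z = ⁅x, y⁆) (hg : z ∈ zpowers (g * x * g⁻¹)) : Piv p z := by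
  refine piv_pair (x := x⁻¹) (y := y) (g := g) hz1 hz (by rw [inv_pow, hx, inv_one]) (Commute.inv_left hxz) hyz ?_ ?_
  · have h1 : y * z = z * y := hyz
    have h2 : x * z = z * x := hxz
    have h3 : y * x⁻¹ * y⁻¹ = x⁻¹ * z := by
      rw [hxy, commutatorElement_def]
      group
    exact h3
  · have e : g * x⁻¹ * g⁻¹ = (g * x * g⁻¹)⁻¹ := by group
    rw [e, zpowers_inv]
    exact hg

end

end Cfsg.Agent.H5.Piv
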